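import Cfsg.Agent.H634.OneP.Code

/-!
# S4879, box (H): local integrality of `A / p` (helper696)

`A = ∑ v(χ) χ` with integers `v(χ)`.

* `local_of_regular` : if `A(t)` is in `M` for the `p`-regular `t` then `A(t) / p` is a local integer;
* `local_of_section` : then `A(x s) / p` is a local integer if `A(x ^ j s) = A(x s)` for `0 < j < p`.
-/

set_option autoImplicit false

open Cfsg IsLocalRing

namespace Cfsg.Agent.H696.LB

open Cfsg.Agent.Characters.Core Cfsg.Agent.Blocks Cfsg.Agent.Blocks.Basic Cfsg.Agent.Blocks.Local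
open Cfsg.Agent.H657 Cfsg.Agent.H634.OneP

universe u

/-- The frame: Frobenius modulo `p` for integral combinations of powers of algebraic integers. -/
theorem frob_step {p : ℕ} [hp : Fact p.Prime] (hpu : (p : AlgInt) ∈ nonunits AlgInt) {ι : Type*} (s : Finset ι)
    (c : ι → ℤ) (z : ι → AlgInt) (f : ℕ) :
    ∃ b : AlgInt, (∑ i ∈ s, (c i : AlgInt) * z i) ^ p ^ f = ∑ i ∈ s, (c i : AlgInt) * z i ^ p ^ f + p * b := by
  have hch : CharP (AlgInt ⧸ (Ideal.span ({(p : AlgInt)} : Set AlgInt))) p := CharP.quotient AlgInt p hpu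
  have hexp : ExpChar (AlgInt ⧸ (Ideal.span ({(p : AlgInt)} : Set AlgInt))) p := ExpChar.prime hp.out
  have h1 : (∑ i ∈ s, (c i : AlgInt) * z i) ^ p ^ f - ∑ i ∈ s, (c i : AlgInt) * z i ^ p ^ f ∈
      Ideal.span ({(p : AlgInt)} : Set AlgInt) := by
    rw [← Ideal.Quotient.eq_zero_iff_mem, map_sub, map_pow, map_sum, map_sum, sum_pow_char_pow, sub_eq_zero]
    refine Finset.sum_congr rfl fun i _ => ?_
    rw [map_mul, map_mul, mul_pow, map_pow]
    congr 1
    rw [map_intCast]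
    have h2 : ∀ k : ℕ, ((c i : AlgInt ⧸ (Ideal.span ({(p : AlgInt)} : Set AlgInt)))) ^ p ^ k = (c i : _) := by
      intro k
      have h3 : ((c i : ZMod p)) ^ p ^ k = (c i : ZMod p) := ZMod.pow_card_pow _
      have h4 := congrArg (ZMod.castHom (dvd_refl p) (AlgInt ⧸ (Ideal.span ({(p : AlgInt)} : Set AlgInt)))) h3
      rw [map_pow, map_intCast] at h4
      exact h4
    exact h2 f
  obtain ⟨b, hb⟩ := Ideal.mem_span_singleton'.1 h1
  refine ⟨b, ?_⟩
  rw [mul_comm (p : AlgInt), hb]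
  ring

section

variable {G : Type u} [Group G] [Finite G] {p : ℕ} [hp : Fact p.Prime] {M : Ideal AlgInt}

omit hp in
theorem p_nonunit (hM : IsPModular p M) : (p : AlgInt) ∈ nonunits AlgInt := by
  intro h
  exact hM.2.1.ne_top (Ideal.eq_top_of_isUnit_mem M hM.2.2 h)

/-- the values at the powers of an element as power sums -/
theorem exists_sum [Fintype (IrrCharacter G)] (v : IrrCharacter G → ℤ) (g : G) :
    ∃ (ι : Type u) (_ : Fintype ι) (c : ι → ℤ) (z : ι → AlgInt), ∀ k : ℕ,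
      ∑ χ : IrrCharacter G, (v χ : ℂ) * (χ : G → ℂ) (g ^ k) =
        ((∑ i, (c i : AlgInt) * z i ^ k : AlgInt) : ℂ) := by
  classical
  have h1 : ∀ χ : IrrCharacter G, ∃ (d : ℕ) (μ : Fin d → AlgInt), ∀ k : ℕ,
      (χ : G → ℂ) (g ^ k) = ((∑ i, μ i ^ k : AlgInt) : ℂ) := by
    intro χ
    obtain ⟨d, μ, -, h1, h2⟩ := Cfsg.Agent.Characters.GaloisBasic.isCharacter_exists_fin_pow
      (Characters.Core.isIrr_isCharacter χ.2) g (n := orderOf g) (orderOf_pos g).ne' (pow_orderOf_eq_one g)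
    have h3 : ∀ i, IsIntegral ℤ (μ i) := by
      intro i
      refine IsIntegral.of_pow (orderOf_pos g) ?_
      rw [h1]
      exact isIntegral_one
    refine ⟨d, fun i => ⟨μ i, h3 i⟩, fun k => ?_⟩
    rw [h2 k]
    push_cast
    rfl
  choose d μ hμ using h1
  refine ⟨(Σ χ : IrrCharacter G, Fin (d χ)), inferInstance, fun i => v i.1, fun i => μ i.1 i.2, fun k => ?_⟩
  rw [Fintype.sum_sigma]
  push_cast
  refine Finset.sum_congr rfl fun χ _ => ?_
  rw [hμ χ k]
  push_cast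
  rw [Finset.mul_sum]

theorem algInt_of [Fintype (IrrCharacter G)] (v : IrrCharacter G → ℤ) (g : G) :
    IsIntegral ℤ (∑ χ : IrrCharacter G, (v χ : ℂ) * (χ : G → ℂ) g) :=
  IsIntegral.sum _ fun χ _ => (isIntegral_algebraMap (x := (v χ : ℤ))).mul (Blocks.Central.isIntegral_irr χ.2 g)

/-- regular elements -/
theorem local_of_regular [Fintype (IrrCharacter G)] (hM : IsPModular p M) (v : IrrCharacter G → ℤ) {t : G}
    (ht : ¬ p ∣ orderOf t)
    (h : MemLocalIdeal M (∑ χ : IrrCharacter G, (v χ : ℂ) * (χ : G → ℂ) t)) :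
    MemLocalRing M ((∑ χ : IrrCharacter G, (v χ : ℂ) * (χ : G → ℂ) t) / (p : ℂ)) := by
  have hMp := isPrime_of_isPModular hM
  obtain ⟨ι, _, c, z, hz⟩ := exists_sum v t
  set f := (orderOf t).totient with hf
  have hf0 : 0 < f := Nat.totient_pos.2 (orderOf_pos t)
  have htp : t ^ p ^ f = t := by
    have h1 : p ^ f ≡ 1 [MOD orderOf t] :=
      Nat.ModEq.pow_totient ((Nat.Prime.coprime_iff_not_dvd hp.out).2 ht)
    have h2 := (pow_eq_pow_iff_modEq (x := t)).2 h1
    rwa [pow_one] at h2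
  obtain ⟨b, hb⟩ := frob_step (p_nonunit hM) Finset.univ c z f
  set A : AlgInt := ∑ i, (c i : AlgInt) * z i with hA
  have hA1 : ∑ χ : IrrCharacter G, (v χ : ℂ) * (χ : G → ℂ) t = (A : ℂ) := by
    have := hz 1
    simp only [pow_one] at this
    exact this
  have hA2 : (∑ i, (c i : AlgInt) * z i ^ p ^ f : AlgInt) = A := by
    apply Subtype.ext
    rw [← hz (p ^ f), htp, hA1]
  rw [hA2] at hb
  rw [hA1] at h ⊢
  have hAM : A ∈ M := by
    obtain ⟨a', b', ha', hb', hab⟩ := h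
    have hb0 := coe_ne_zero_of_notMem hb'
    rw [div_eq_iff hb0] at hab
    have h3 : a' = A * b' := Subtype.ext (by rw [hab]; rfl)
    rw [h3] at ha'
    exact (hMp.mem_or_mem ha').resolve_right hb'
  have hpf : 1 < p ^ f := Nat.one_lt_pow hf0.ne' hp.out.one_lt
  -- the denominator
  set D : AlgInt := A ^ (p ^ f - 1) - 1 with hD
  have hDM : D ∉ M := by
    intro h3
    have h4 : A ^ (p ^ f - 1) ∈ M := M.pow_mem_of_mem hAM _ (by omega)
    have h5 : (1 : AlgInt) ∈ M := by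
      have h6 := M.sub_mem h4 h3
      rwa [hD, sub_sub_cancel] at h6
    exact one_notMem h5
  have h3 : A * D = p * b := by
    rw [hD, mul_sub, mul_one, ← pow_succ', Nat.sub_add_cancel hpf.le, hb]
    ring
  refine ⟨b, D, hDM, ?_⟩
  have hD0 := coe_ne_zero_of_notMem hDM
  have hp0 : (p : ℂ) ≠ 0 := by exact_mod_cast hp.out.ne_zero
  rw [div_eq_div_iff hD0 hp0]
  have h4 : ((A * D : AlgInt) : ℂ) = ((p * b : AlgInt) : ℂ) := congrArg (fun w : AlgInt => (w : ℂ)) h3
  push_cast at h4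
  rw [h4]
  ring

omit hp in
/-- sum over the powers of a central element -/
theorem sum_central {x : G} (hx : x ^ p = 1) (χ : IrrCharacter G) {C : Subgroup G}
    (hC : C = Subgroup.centralizer ({x} : Set G)) (s : C) :
    ∃ β : ℂ, IsIntegral ℤ β ∧ ∑ j ∈ Finset.range p, (χ : G → ℂ) (x ^ j * s) = p * β := by
  classical
  have := finite_irr (G := C)
  have := Fintype.ofFinite (IrrCharacter C)
  have hxC : x ∈ C := hC ▸ Subgroup.mem_centralizer_singleton_iff.2 rfl
  have hz : (⟨x, hxC⟩ : C) ∈ Subgroup.center C := by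
    rw [Subgroup.mem_center_iff]
    intro g
    exact Subtype.ext (Subgroup.mem_centralizer_singleton_iff.1 (hC ▸ g.2))
  have hchar : IsCharacter C (fun c : C => (χ : G → ℂ) (c : G)) :=
    isCharacter_comp C.subtype (isIrr_isCharacter χ.2)
  obtain ⟨m, hm⟩ := isCharacter_iff.1 hchar
  have hm' : ∀ c : C, (χ : G → ℂ) (c : G) = ∑ ψ : IrrCharacter C, (m ψ : ℂ) * (ψ : C → ℂ) c := by
    intro c
    have := congrFun hm c
    rw [Finset.sum_apply] at this
    rw [this]
    exact Finset.sum_congr rfl fun ψ _ => by rw [Pi.smul_apply, nsmul_eq_mul]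
  choose c hc1 hc2 using fun ξ : IrrCharacter C => Cfsg.Agent.H686.K4.exists_scalar_integral ξ.2 hz
  have hpow : ∀ (ψ : IrrCharacter C) (n : ℕ) (y : C), (ψ : C → ℂ) ((⟨x, hxC⟩ : C) ^ n * y) = c ψ ^ n * (ψ : C → ℂ) y := by
    intro ψ n y
    induction n with
    | zero => simp
    | succ n ih => rw [pow_succ', mul_assoc, hc2, ih, pow_succ']; ring
  have hcp : ∀ ψ : IrrCharacter C, c ψ ^ p = 1 := by
    intro ψ
    have h3 := hpow ψ p 1
    have h2 : (⟨x, hxC⟩ : C) ^ p = 1 := Subtype.ext (by rw [Subgroup.coe_pow, Subgroup.coe_one]; exact hx)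
    rw [h2, one_mul] at h3
    have h4 := isIrr_apply_one_ne_zero ψ.2
    exact mul_right_cancel₀ h4 (by rw [← h3, one_mul])
  have hgeom : ∀ ψ : IrrCharacter C, ∑ j ∈ Finset.range p, c ψ ^ j = if c ψ = 1 then (p : ℂ) else 0 := by
    intro ψ
    by_cases h1 : c ψ = 1
    · rw [if_pos h1, h1]
      simp
    · rw [if_neg h1]
      have h2 := mul_neg_geom_sum (c ψ) p
      rw [hcp ψ, sub_self] at h2
      exact (mul_eq_zero.1 h2).resolve_left (sub_ne_zero.2 (Ne.symm h1))
  refine ⟨∑ ψ : IrrCharacter C, (m ψ : ℂ) * (if c ψ = 1 then (1 : ℂ) else 0) * (ψ : C → ℂ) s, ?_, ?_⟩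
  · refine IsIntegral.sum _ fun ψ _ => ((?_ : IsIntegral ℤ ((m ψ : ℂ))).mul ?_).mul (Blocks.Central.isIntegral_irr ψ.2 s)
    · have := isIntegral_algebraMap (R := ℤ) (A := ℂ) (x := (m ψ : ℤ))
      simpa using this
    · split_ifs
      · exact isIntegral_one
      · exact isIntegral_zero
  · have h1 : ∀ j : ℕ, (χ : G → ℂ) (x ^ j * s) = ∑ ψ : IrrCharacter C, (m ψ : ℂ) * (c ψ ^ j * (ψ : C → ℂ) s) := by
      intro j
      have h2 := hm' ((⟨x, hxC⟩ : C) ^ j * s)
      rw [Subgroup.coe_mul, Subgroup.coe_pow] at h2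
      rw [h2]
      exact Finset.sum_congr rfl fun ψ _ => by rw [hpow]
    rw [Finset.sum_congr rfl fun j _ => h1 j, Finset.sum_comm, Finset.mul_sum]
    refine Finset.sum_congr rfl fun ψ _ => ?_
    rw [← Finset.mul_sum, ← Finset.sum_mul, hgeom ψ]
    split_ifs <;> ring

/-- singular elements -/
theorem local_of_section [Fintype (IrrCharacter G)] (hM : IsPModular p M) (v : IrrCharacter G → ℤ) {x : G}
    (hx : x ^ p = 1) (s : Subgroup.centralizer ({x} : Set G))
    (hrat : ∀ j : ℕ, 0 < j → j < p → ∀ χ : IrrCharacter G, v χ ≠ 0 → (χ : G → ℂ) (x ^ j * s) = (χ : G → ℂ) (x * s))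
    (h : MemLocalRing M ((∑ χ : IrrCharacter G, (v χ : ℂ) * (χ : G → ℂ) s) / (p : ℂ))) :
    MemLocalRing M ((∑ χ : IrrCharacter G, (v χ : ℂ) * (χ : G → ℂ) (x * s)) / (p : ℂ)) := by
  classical
  have hMp := isPrime_of_isPModular hM
  have hp0 : (p : ℂ) ≠ 0 := by exact_mod_cast hp.out.ne_zero
  choose β hβ hβ' using fun χ : IrrCharacter G => sum_central (p := p) hx χ rfl s
  set A : ℕ → ℂ := fun j => ∑ χ : IrrCharacter G, (v χ : ℂ) * (χ : G → ℂ) (x ^ j * s) with hA
  have hA0 : A 0 = ∑ χ : IrrCharacter G, (v χ : ℂ) * (χ : G → ℂ) s := by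
    simp only [hA, pow_zero, one_mul]
  have hA1 : A 1 = ∑ χ : IrrCharacter G, (v χ : ℂ) * (χ : G → ℂ) (x * s) := by
    simp only [hA, pow_one]
  have hAj : ∀ j : ℕ, 0 < j → j < p → A j = A 1 := by
    intro j h1 h2
    rw [hA1]
    refine Finset.sum_congr rfl fun χ _ => ?_
    by_cases h3 : v χ = 0
    · rw [h3]; simp
    · rw [hrat j h1 h2 χ h3]
  set Γ : ℂ := ∑ χ : IrrCharacter G, (v χ : ℂ) * β χ with hΓ
  have hΓi : IsIntegral ℤ Γ :=
    IsIntegral.sum _ fun χ _ => (isIntegral_algebraMap (x := (v χ : ℤ))).mul (hβ χ)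
  have hsum : ∑ j ∈ Finset.range p, A j = p * Γ := by
    simp only [hA]
    rw [Finset.sum_comm, hΓ, Finset.mul_sum]
    refine Finset.sum_congr rfl fun χ _ => ?_
    rw [← Finset.mul_sum, hβ' χ]
    ring
  have hsum2 : ∑ j ∈ Finset.range p, A j = A 0 + (p - 1) * A 1 := by
    obtain ⟨q, hq⟩ : ∃ q, p = q + 1 := ⟨p - 1, by have := hp.out.pos; omega⟩
    rw [hq, Finset.sum_range_succ', add_comm]
    congr 1
    rw [Finset.sum_congr rfl fun j hj => hAj (j + 1) (by omega) (by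
      have := Finset.mem_range.1 hj
      omega), Finset.sum_const, Finset.card_range, nsmul_eq_mul]
    push_cast
    ring
  have hfin : A 1 / p = A 1 - Γ + A 0 / p := by
    field_simp
    rw [hsum2] at hsum
    linear_combination -hsum
  rw [← hA1, hfin]
  refine memLocalRing_add (memLocalRing_sub ?_ (memLocalRing_of_isIntegral hΓi)) (by rw [hA0]; exact h)
  rw [hA1]
  exact memLocalRing_of_isIntegral (algInt_of v (x * s))

end

end Cfsg.Agent.H696.LB
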