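import Cfsg.Agent.H696.LB.Rat
import Cfsg.Agent.H696.LB.Loc
import Cfsg.Agent.H193.LB.Strict
import Cfsg.Agent.H634.OneP.Main
import Cfsg.Agent.H634.Cols

/-!
# S4879, box (H): `p = 5`, `|P| = 25`, one class of `5`-elements: `5 ≤ l(B₀)` (helper696)
-/

set_option autoImplicit false
set_option linter.unusedSectionVars false

open Cfsg IsLocalRing

namespace Cfsg.Agent.H696.LB

open Cfsg.Agent.Characters.Core Cfsg.Agent.Blocks Cfsg.Agent.Blocks.Basic Cfsg.Agent.Blocks.Local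
open Cfsg.Agent.H657 Cfsg.Agent.H634.OneP

universe u

section

variable {G : Type u} [Group G] [Finite G] {p : ℕ} [hp : Fact p.Prime] {M : Ideal AlgInt}

/-- `l(B₀) = 1`: the members of the principal block are constant on the `p`-regular elements. -/
theorem const_of_rank_one (hM : IsPModular p M) (hr : blockRank p (principalBlock M G) = 1) {ψ : IrrCharacter G}
    (hψ : ψ ∈ principalBlock M G) {s : G} (hs : ¬ p ∣ orderOf s) : (ψ : G → ℂ) s = (ψ : G → ℂ) 1 := by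
  classical
  have := isPrime_of_isPModular hM
  have := finite_irr (G := G)
  unfold blockRank at hr
  set W := Submodule.span ℂ ((fun χ : IrrCharacter G => pRegularPart p (χ : G → ℂ)) '' principalBlock M G) with hW
  have h1B : (⟨fun _ => 1, isIrrCharacter_one⟩ : IrrCharacter G) ∈ principalBlock M G :=
    Cfsg.Agent.Blocks.PrincipalSection.one_mem_principalBlock
  have h1 : pRegularPart p (fun _ : G => (1 : ℂ)) ∈ W := Submodule.subset_span ⟨_, h1B, rfl⟩
  have h2 : pRegularPart p (ψ : G → ℂ) ∈ W := Submodule.subset_span ⟨_, hψ, rfl⟩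
  have hreg1 : IsPRegular p (1 : G) := by
    unfold IsPRegular
    rw [orderOf_one]
    exact fun h => hp.out.one_lt.ne' (Nat.dvd_one.1 h)
  have hne : (⟨_, h1⟩ : W) ≠ 0 := by
    intro h3
    have h4 := congrFun (congrArg Subtype.val h3) 1
    simp only [pRegularPart, if_pos hreg1] at h4
    exact one_ne_zero h4
  obtain ⟨c, hc⟩ := (finrank_eq_one_iff_of_nonzero' (⟨_, h1⟩ : W) hne).1 hr ⟨_, h2⟩
  have h3 : ∀ t : G, IsPRegular p t → (ψ : G → ℂ) t = c := by
    intro t ht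
    have h4 := congrFun (congrArg Subtype.val hc) t
    simp only [pRegularPart, Submodule.coe_smul, Pi.smul_apply, if_pos ht, smul_eq_mul, mul_one] at h4
    exact h4.symm
  rw [h3 s hs, h3 1 hreg1]

end

/-- the absolutely least residue modulo `5` -/
def r5 (z : ℤ) : ℤ := (z + 2) % 5 - 2

/-- the integer end -/
theorem count_end {ι : Type*} [Fintype ι] [DecidableEq ι] (w : ι → ℤ) (o : ι) (ho : w o = 1)
    (h1 : 10 ≤ ∑ i, r5 (w i) ^ 2) (h2 : 15 ≤ ∑ i, r5 (2 * w i) ^ 2) :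
    5 ≤ Nat.card {i : ι // i ≠ o ∧ ¬ (5 : ℤ) ∣ w i} := by
  have hb : ∀ z : ℤ, ∃ c : ℤ, r5 z ^ 2 + r5 (2 * z) ^ 2 = 5 * (if (5 : ℤ) ∣ z then 0 else 1) ∧
      r5 z ^ 2 = (if (5 : ℤ) ∣ z then 0 else 1) + 3 * c := by
    intro z
    have hz : r5 z = 0 ∧ (5 : ℤ) ∣ z ∧ r5 (2 * z) = 0 ∨
        r5 z = 1 ∧ ¬ (5 : ℤ) ∣ z ∧ r5 (2 * z) = 2 ∨ r5 z = 2 ∧ ¬ (5 : ℤ) ∣ z ∧ r5 (2 * z) = -1 ∨
        r5 z = -1 ∧ ¬ (5 : ℤ) ∣ z ∧ r5 (2 * z) = -2 ∨ r5 z = -2 ∧ ¬ (5 : ℤ) ∣ z ∧ r5 (2 * z) = 1 := by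
      unfold r5
      have h5 : z % 5 = 0 ∨ z % 5 = 1 ∨ z % 5 = 2 ∨ z % 5 = 3 ∨ z % 5 = 4 := by omega
      rcases h5 with h5 | h5 | h5 | h5 | h5 <;> omega
    rcases hz with ⟨e1, e2, e3⟩ | ⟨e1, e2, e3⟩ | ⟨e1, e2, e3⟩ | ⟨e1, e2, e3⟩ | ⟨e1, e2, e3⟩
    · exact ⟨0, by rw [e1, e3, if_pos e2]; norm_num, by rw [e1, if_pos e2]; norm_num⟩
    · exact ⟨0, by rw [e1, e3, if_neg e2]; norm_num, by rw [e1, if_neg e2]; norm_num⟩
    · exact ⟨1, by rw [e1, e3, if_neg e2]; norm_num, by rw [e1, if_neg e2]; norm_num⟩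
    · exact ⟨0, by rw [e1, e3, if_neg e2]; norm_num, by rw [e1, if_neg e2]; norm_num⟩
    · exact ⟨1, by rw [e1, e3, if_neg e2]; norm_num, by rw [e1, if_neg e2]; norm_num⟩
  choose c hc1 hc2 using hb
  set S : ℤ := ∑ i, (if (5 : ℤ) ∣ w i then 0 else 1) with hS
  have e1 : ∑ i, r5 (w i) ^ 2 + ∑ i, r5 (2 * w i) ^ 2 = 5 * S := by
    rw [← Finset.sum_add_distrib, hS, Finset.mul_sum]
    exact Finset.sum_congr rfl fun i _ => hc1 _
  have e2 : ∑ i, r5 (w i) ^ 2 = S + 3 * ∑ i, c (w i) := by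
    rw [hS, Finset.mul_sum, ← Finset.sum_add_distrib]
    exact Finset.sum_congr rfl fun i _ => hc2 _
  have e3 : S = Nat.card {i : ι // i ≠ o ∧ ¬ (5 : ℤ) ∣ w i} + 1 := by
    rw [Nat.card_eq_fintype_card, Fintype.card_subtype, hS, ← Finset.add_sum_erase _ _ (Finset.mem_univ o), ho,
      if_neg (by norm_num), add_comm]
    congr 1
    rw [Finset.card_filter]
    push_cast
    rw [← Finset.add_sum_erase _ _ (Finset.mem_univ o), if_neg (fun h => h.1 rfl), zero_add]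
    refine Finset.sum_congr rfl fun i hi => ?_
    have hi' := Finset.ne_of_mem_erase hi
    by_cases h : (5 : ℤ) ∣ w i
    · rw [if_pos h, if_neg (fun h' => h'.2 h)]
    · rw [if_neg h, if_pos ⟨hi', h⟩]
  omega

section

variable {G : Type u} [Group G] [Finite G] {p : ℕ} [hp : Fact p.Prime] {M : Ideal AlgInt} {V : ValuationSubring ℂ}

/-- residues -/
theorem ideal_of_rd [Fintype (IrrCharacter G)] (hM : IsPModular p M) (hV : Above M V) (v : IrrCharacter G → ℤ) (g : G)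
    (h : ∑ χ : IrrCharacter G, (v χ : ResidueField V) * rd V (χ : G → ℂ) g = 0) :
    MemLocalIdeal M (∑ χ : IrrCharacter G, (v χ : ℂ) * (χ : G → ℂ) g) := by
  have hMp := isPrime_of_isPModular hM
  have hloc : MemLocalRing M (∑ χ : IrrCharacter G, (v χ : ℂ) * (χ : G → ℂ) g) :=
    memLocalRing_of_isIntegral (algInt_of v g)
  rw [← hV.nonunit_iff hM.2.1 hloc]
  have hmem : ∀ χ : IrrCharacter G, (χ : G → ℂ) g ∈ V := fun χ => irr_mem hV χ g
  have h1 : (∑ χ : IrrCharacter G, (v χ : ℂ) * (χ : G → ℂ) g) =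
      ((∑ χ : IrrCharacter G, (v χ : V) * ⟨(χ : G → ℂ) g, hmem χ⟩ : V) : ℂ) := by
    push_cast
    rfl
  rw [h1, ← Above.residue_eq_zero_iff', map_sum, ← h]
  refine Finset.sum_congr rfl fun χ _ => ?_
  rw [map_mul, map_intCast, rd_of (hmem χ)]

/-- an element conjugating `x` to a power of `x` normalizes `⟨x⟩` -/
theorem mem_normalizer_of_conj {n x : G} {j : ℕ} (h3 : n * x * n⁻¹ = x ^ j) :
    n ∈ Subgroup.normalizer ((Subgroup.zpowers x : Subgroup G) : Set G) := by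
  have hle : (Subgroup.zpowers x).map (MulAut.conj n).toMonoidHom ≤ Subgroup.zpowers x := by
    rw [MonoidHom.map_zpowers, Subgroup.zpowers_le]
    change n * x * n⁻¹ ∈ Subgroup.zpowers x
    rw [h3]
    exact Subgroup.pow_mem _ (Subgroup.mem_zpowers x) j
  have heq : (Subgroup.zpowers x).map (MulAut.conj n).toMonoidHom = Subgroup.zpowers x := by
    apply Subgroup.eq_of_le_of_card_ge hle
    rw [Subgroup.card_map_of_injective (MulAut.conj n).injective]
  rw [Subgroup.mem_normalizer_iff]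
  intro z
  constructor
  · intro hz
    have hz' : MulAut.conj n z ∈ (Subgroup.zpowers x).map (MulAut.conj n).toMonoidHom := ⟨z, hz, rfl⟩
    rw [heq] at hz'
    exact hz'
  · intro hz
    have hz' : MulAut.conj n z ∈ Subgroup.zpowers x := hz
    rw [← heq] at hz'
    obtain ⟨w, hw, hwz⟩ := hz'
    have : w = z := (MulAut.conj n).injective hwz
    rw [← this]
    exact hw

/-- local integrality everywhere -/
theorem local_all [Fintype (IrrCharacter G)] (hM : IsPModular p M) (hV : Above M V)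
    (hconj : ∀ x y : G, x ≠ 1 → y ≠ 1 → (∃ k : ℕ, orderOf x = p ^ k) → (∃ k : ℕ, orderOf y = p ^ k) → IsConj x y)
    {x : G} (hxo : orderOf x = p)
    (htriv : ∀ ψ ∈ principalBlock M (Subgroup.centralizer ({x} : Set G)),
      ∀ n ∈ Subgroup.normalizer ((Subgroup.zpowers x : Subgroup G) : Set G),
      ∀ s s' : Subgroup.centralizer ({x} : Set G), ¬ p ∣ orderOf s → (s' : G) = n * s * n⁻¹ →
        (ψ : Subgroup.centralizer ({x} : Set G) → ℂ) s' =
          (ψ : Subgroup.centralizer ({x} : Set G) → ℂ) s) (v : IrrCharacter G → ℤ)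
    (hv : ∀ χ, χ ∉ principalBlock M G → v χ = 0)
    (hreg : ∀ g : G, ¬ p ∣ orderOf g → ∑ χ : IrrCharacter G, (v χ : ResidueField V) * rd V (χ : G → ℂ) g = 0) (g : G) :
    MemLocalRing M ((∑ χ : IrrCharacter G, (v χ : ℂ) * (χ : G → ℂ) g) / (p : ℂ)) := by
  have hreg' : ∀ t : G, ¬ p ∣ orderOf t →
      MemLocalRing M ((∑ χ : IrrCharacter G, (v χ : ℂ) * (χ : G → ℂ) t) / (p : ℂ)) := fun t ht =>
    local_of_regular hM v ht (ideal_of_rd hM hV v t (hreg t ht))
  obtain ⟨y, t, hyt, hc, ⟨k, hk⟩, ht⟩ := Cfsg.Agent.Blocks.PPart.exists_isPPart p g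
  by_cases hy : y = 1
  · rw [hy, one_mul] at hyt
    rw [← hyt]
    exact hreg' t ht
  have hx1 : x ≠ 1 := by
    rintro rfl
    rw [orderOf_one] at hxo
    exact hp.out.one_lt.ne hxo
  obtain ⟨c, hcy⟩ := isConj_iff.1 (hconj y x hy hx1 ⟨k, hk⟩ ⟨1, by rw [hxo, pow_one]⟩)
  have hs : c * t * c⁻¹ ∈ Subgroup.centralizer ({x} : Set G) := by
    rw [Subgroup.mem_centralizer_singleton_iff, ← hcy]
    calc c * t * c⁻¹ * (c * y * c⁻¹) = c * (t * y) * c⁻¹ := by group
      _ = c * (y * t) * c⁻¹ := by rw [hc.eq]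
      _ = c * y * c⁻¹ * (c * t * c⁻¹) := by group
  have hso : orderOf (c * t * c⁻¹) = orderOf t :=
    orderOf_injective (MulAut.conj c).toMonoidHom (MulAut.conj c).injective t
  have hg : ∀ χ : IrrCharacter G, (χ : G → ℂ) g = (χ : G → ℂ) (x * (c * t * c⁻¹)) := by
    intro χ
    rw [← irr_conj χ.2 g c, ← hyt, ← hcy]
    congr 1
    group
  rw [Finset.sum_congr rfl fun χ _ => by rw [hg χ]]
  have hxp : x ^ p = 1 := by rw [← hxo, pow_orderOf_eq_one]
  refine local_of_section hM v hxp ⟨c * t * c⁻¹, hs⟩ ?_ (hreg' _ (by rw [hso]; exact ht))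
  intro j hj0 hjp χ hχv
  have hχ : χ ∈ principalBlock M G := by
    by_contra h
    exact hχv (hv χ h)
  have hjo : orderOf (x ^ j) = p := by
    have h1 : Nat.Coprime p j := (Nat.Prime.coprime_iff_not_dvd hp.out).2 fun h => by
      have := Nat.le_of_dvd hj0 h
      omega
    rw [Nat.Coprime.orderOf_pow (by rw [hxo]; exact h1), hxo]
  have hj1 : x ^ j ≠ 1 := by
    intro h
    rw [h, orderOf_one] at hjo
    exact hp.out.one_lt.ne hjo
  obtain ⟨n, hn⟩ := isConj_iff.1 (hconj x (x ^ j) hx1 hj1 ⟨1, by rw [hxo, pow_one]⟩ ⟨1, by rw [hjo, pow_one]⟩)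
  exact rat hM ⟨1, by rw [hxo, pow_one]⟩ htriv hχ (mem_normalizer_of_conj hn) hn ⟨c * t * c⁻¹, hs⟩
    (by rw [← Subgroup.orderOf_coe]; change ¬ p ∣ orderOf (c * t * c⁻¹); rw [hso]; exact ht)

/-- one class: the Sylow subgroup is elementary abelian -/
theorem hel_of (P : Sylow p G) (hP1 : p ∣ Nat.card P)
    (hconj : ∀ x y : G, x ≠ 1 → y ≠ 1 → (∃ k : ℕ, orderOf x = p ^ k) → (∃ k : ℕ, orderOf y = p ^ k) → IsConj x y) :
    (∃ x ∈ (P : Subgroup G), orderOf x = p) ∧ ∀ x ∈ (P : Subgroup G), x ^ p = 1 := by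
  obtain ⟨x, hx⟩ := exists_prime_orderOf_dvd_card' p hP1
  have hxo : orderOf (x : G) = p := by rw [Subgroup.orderOf_coe, hx]
  refine ⟨⟨x, x.2, hxo⟩, fun y hy => ?_⟩
  by_cases hy1 : y = 1
  · rw [hy1, one_pow]
  have hx1 : (x : G) ≠ 1 := by
    intro h
    rw [h, orderOf_one] at hxo
    exact hp.out.one_lt.ne hxo
  have hyp : ∃ k : ℕ, orderOf y = p ^ k := by
    obtain ⟨k, hk⟩ := (IsPGroup.iff_orderOf.1 P.2) ⟨y, hy⟩
    exact ⟨k, by rw [← hk, Subgroup.orderOf_mk]⟩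
  obtain ⟨c, hc⟩ := isConj_iff.1 (hconj x y hx1 hy1 ⟨1, by rw [hxo, pow_one]⟩ hyp)
  have hxp := pow_orderOf_eq_one (x : G)
  rw [hxo] at hxp
  rw [← hc, conj_pow, hxp, mul_one, mul_inv_cancel]

/-- Brauer's formula for one class of `p`-elements -/
theorem card_eq_of_one (hM : IsPModular p M)
    (hconj : ∀ x y : G, x ≠ 1 → y ≠ 1 → (∃ k : ℕ, orderOf x = p ^ k) → (∃ k : ℕ, orderOf y = p ^ k) → IsConj x y)
    {x : G} (hx1 : x ≠ 1) (hx : ∃ k : ℕ, orderOf x = p ^ k) :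
    Nat.card (principalBlock M G) = blockRank p (principalBlock M G) +
      blockRank p (principalBlock M (Subgroup.centralizer ({x} : Set G))) := by
  classical
  have h1 : ∃ k : ℕ, orderOf (1 : G) = p ^ k := ⟨0, by simp⟩
  rw [Cfsg.Agent.H634.Cols.card_principal_eq hM ({1, x} : Finset G)]
  · rw [Finset.sum_pair (Ne.symm hx1)]
    have h3 : blockRank p (principalBlock M ↥(Subgroup.centralizer ({(1 : G)} : Set G))) =
        blockRank p (principalBlock M G) := by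
      rw [← Cfsg.Agent.H634.Cols.finrank_secMap_principal hM h1, Cfsg.Agent.H634.Cols.finrank_secMap_one]
    rw [h3]
  · intro y hy
    simp only [Finset.mem_insert, Finset.mem_singleton] at hy
    rcases hy with rfl | rfl
    · exact h1
    · exact hx
  · intro g hg
    by_cases hg1 : g = 1
    · refine ⟨1, ⟨by simp, by rw [hg1]⟩, ?_⟩
      rintro y ⟨hy, hgy⟩
      rw [hg1] at hgy
      exact isConj_one_right.1 hgy
    · refine ⟨x, ⟨by simp, hconj g x hg1 hx1 hg hx⟩, ?_⟩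
      rintro y ⟨hy, hgy⟩
      simp only [Finset.mem_insert, Finset.mem_singleton] at hy
      rcases hy with rfl | rfl
      · exact absurd (isConj_one_left.1 hgy) hg1
      · rfl

end

end Cfsg.Agent.H696.LB
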