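import Cfsg.Agent.H634.OneP.Def
import Cfsg.Agent.H686.K4.Integral

/-!
# S4879, box (H): rationality of the columns of a `p`-section of the principal block (helper696)

`sec` : second and third main theorem for the section of `x`;
`rat` : `χ (x ^ j s) = χ (x s)` for `χ` in the principal block, if the members of the principal block of `C_G(x)` are invariant
under `N_G(⟨x⟩)` on the `p`-regular elements.
-/

set_option autoImplicit false

open Cfsg

namespace Cfsg.Agent.H696.LB

open Cfsg.Agent.Characters.Core Cfsg.Agent.Blocks Cfsg.Agent.Blocks.Basic Cfsg.Agent.Blocks.Local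

universe u

variable {G : Type u} [Group G] [Finite G] {p : ℕ} [hp : Fact p.Prime] {M : Ideal AlgInt}

theorem sec (hM : IsPModular p M) {x : G} (hx : ∃ k : ℕ, orderOf x = p ^ k) {C : Subgroup G}
    (hC : C = Subgroup.centralizer ({x} : Set G)) [Fintype (IrrCharacter C)] {χ : IrrCharacter G}
    (hχ : χ ∈ principalBlock M G) :
    ∃ a : IrrCharacter C → ℂ, (∀ ψ, ψ ∉ principalBlock M C → a ψ = 0) ∧
      ∀ s : C, ¬ p ∣ orderOf s → (χ : G → ℂ) (x * s) = ∑ ψ, a ψ * (ψ : C → ℂ) s := by
  classical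
  have hMp := isPrime_of_isPModular hM
  have := Fintype.ofFinite G
  have := Fintype.ofFinite C
  refine ⟨fun ψ => if ψ ∈ principalBlock M C then
    classInner (fun c : C => (χ : G → ℂ) (x * (c : G))) (ψ : C → ℂ) else 0, fun ψ hψ => if_neg hψ, fun s hs => ?_⟩
  have hsum := CentralizerSum.sum_components hM x hx hC
    PrincipalSection.isPBlock_principalBlock (A := principalBlock M C)
    (PrincipalSection.mem_principalBlock_iff_induced hM x hx hC) s hs χ
  rw [if_pos hχ] at hsum
  rw [← hsum, Finset.sum_filter]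
  refine Finset.sum_congr rfl fun ψ _ => ?_
  by_cases h : ψ ∈ principalBlock M C
  · beta_reduce
    rw [if_pos h, if_pos h]
  · beta_reduce
    rw [if_neg h, if_neg h, zero_mul]

omit [Finite G] in
theorem normalizer_zpowers_conj {x n s : G}
    (hn : n ∈ Subgroup.normalizer ((Subgroup.zpowers x : Subgroup G) : Set G))
    (hs : s ∈ Subgroup.centralizer ({x} : Set G)) : n⁻¹ * s * n ∈ Subgroup.centralizer ({x} : Set G) := by
  rw [Subgroup.mem_centralizer_singleton_iff] at hs ⊢
  have h1 : n * x * n⁻¹ ∈ Subgroup.zpowers x := (Subgroup.mem_normalizer_iff.1 hn x).1 (Subgroup.mem_zpowers x)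
  obtain ⟨k, hk⟩ := h1
  have hk' : x ^ k = n * x * n⁻¹ := hk
  have h2 : Commute s (x ^ k) := (show Commute s x from hs).zpow_right k
  rw [hk'] at h2
  have h3 : s * (n * x * n⁻¹) = n * x * n⁻¹ * s := h2
  calc n⁻¹ * s * n * x = n⁻¹ * (s * (n * x * n⁻¹)) * n := by group
    _ = n⁻¹ * (n * x * n⁻¹ * s) * n := by rw [h3]
    _ = x * (n⁻¹ * s * n) := by group

/-- Rationality. -/
theorem rat (hM : IsPModular p M) {x : G} (hx : ∃ k : ℕ, orderOf x = p ^ k)
    (htriv : ∀ ψ ∈ principalBlock M (Subgroup.centralizer ({x} : Set G)),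
      ∀ n ∈ Subgroup.normalizer ((Subgroup.zpowers x : Subgroup G) : Set G),
      ∀ s s' : Subgroup.centralizer ({x} : Set G), ¬ p ∣ orderOf s → (s' : G) = n * s * n⁻¹ →
        (ψ : Subgroup.centralizer ({x} : Set G) → ℂ) s' =
          (ψ : Subgroup.centralizer ({x} : Set G) → ℂ) s) {χ : IrrCharacter G}
    (hχ : χ ∈ principalBlock M G) {n : G} {j : ℕ}
    (hn : n ∈ Subgroup.normalizer ((Subgroup.zpowers x : Subgroup G) : Set G)) (hj : n * x * n⁻¹ = x ^ j)
    (s : Subgroup.centralizer ({x} : Set G)) (hs : ¬ p ∣ orderOf s) :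
    (χ : G → ℂ) (x ^ j * s) = (χ : G → ℂ) (x * s) := by
  classical
  have := finite_irr (G := Subgroup.centralizer ({x} : Set G))
  have := Fintype.ofFinite (IrrCharacter (Subgroup.centralizer ({x} : Set G)))
  obtain ⟨a, ha, has⟩ := sec hM hx rfl hχ
  let s₀ : Subgroup.centralizer ({x} : Set G) := ⟨n⁻¹ * s * n, normalizer_zpowers_conj hn s.2⟩
  have hs₀ : ¬ p ∣ orderOf s₀ := by
    have h1 : orderOf s₀ = orderOf s := by
      rw [← Subgroup.orderOf_coe, ← Subgroup.orderOf_coe s]
      have h2 : (s₀ : G) = MulAut.conj n⁻¹ (s : G) := by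
        change n⁻¹ * s * n = n⁻¹ * s * n⁻¹⁻¹
        rw [inv_inv]
      rw [h2]
      exact orderOf_injective (MulAut.conj n⁻¹).toMonoidHom (MulAut.conj n⁻¹).injective _
    rwa [h1]
  have h1 : (χ : G → ℂ) (x ^ j * s) = (χ : G → ℂ) (x * s₀) := by
    have h2 : x ^ j * (s : G) = n * (x * (s₀ : G)) * n⁻¹ := by
      change x ^ j * (s : G) = n * (x * (n⁻¹ * s * n)) * n⁻¹
      rw [← hj]
      group
    rw [h2, irr_conj χ.2]
  rw [h1, has s₀ hs₀, has s hs]
  refine Finset.sum_congr rfl fun ψ _ => ?_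
  by_cases hψ : ψ ∈ principalBlock M (Subgroup.centralizer ({x} : Set G))
  · have h3 : (s : G) = n * s₀ * n⁻¹ := by
      change (s : G) = n * (n⁻¹ * s * n) * n⁻¹
      group
    rw [htriv ψ hψ n hn s₀ s hs₀ h3]
  · rw [ha ψ hψ, zero_mul, zero_mul]

end Cfsg.Agent.H696.LB
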